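import Cfsg.Agent.Lib.Helper58.G2Syl.Defs
import Cfsg.Agent.Lib.Helper14.G2Syl.A6a
import Cfsg.Agent.Lib.Helper14.G2Syl.A6b

set_option autoImplicit false

/-! # G2Syl piece A6c : the stabiliser of `e1` embeds in `SL₃` (from A6a, A6b as hypotheses) -/

namespace Cfsg.Agent.Lib.Helper63.G2Syl

open Cfsg Cfsg.Lie Cfsg.Agent.Lib.Helper58.WrSyl Cfsg.Agent.Lib.Helper58.G2Syl
open scoped MatrixGroups
open Matrix.GeneralLinearGroup (scalar det)

theorem blkFun_comp {F : Type*} [Field F] (A B A' B' : Matrix (Fin 3) (Fin 3) F) (x : Fin 8 → F) :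
    blkFun A B (blkFun A' B' x) = blkFun (A * A') (B * B') x := by
  ext i
  fin_cases i <;>
    simp [blkFun, Matrix.mulVec, dotProduct, Fin.sum_univ_three, Matrix.mul_apply] <;> ring

theorem blk_inj {F : Type*} [Field F] {A B A' B' : Matrix (Fin 3) (Fin 3) F}
    (h : ∀ x, blkFun A B x = blkFun A' B' x) : A = A' := by
  have key : ∀ v : Fin 3 → F, A.mulVec v = A'.mulVec v := by
    intro v
    have hx := h ![0, v 0, v 1, v 2, 0, 0, 0, 0]
    have hv : (![v 0, v 1, v 2] : Fin 3 → F) = v := by ext i; fin_cases i <;> rfl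
    ext i
    fin_cases i
    · have := congrFun hx 1
      simpa [blkFun, hv] using this
    · have := congrFun hx 2
      simpa [blkFun, hv] using this
    · have := congrFun hx 3
      simpa [blkFun, hv] using this
  ext i j
  have := congrFun (key (Pi.single j 1)) i
  simpa using this

theorem stab_embed_of (F : Type*) [Field F]
    (hA6a : ∀ f : L8 F, f ∈ StabE F →
      ∃ A B : Matrix (Fin 3) (Fin 3) F, ∀ x, f x = blkFun A B x)
    (hA6b : ∀ f : L8 F, f ∈ AutO F → ∀ A B : Matrix (Fin 3) (Fin 3) F,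
      (∀ x, f x = blkFun A B x) → A.det = 1 ∧ B.transpose * A = 1) :
    ∃ ρ : StabE F →* Matrix.SpecialLinearGroup (Fin 3) F, Function.Injective ρ := by
  classical
  choose! α β hαβ using hA6a
  have hdet : ∀ f : StabE F, (α f.1).det = 1 := fun f =>
    (hA6b f.1 f.2.1 _ _ (hαβ f.1 f.2)).1
  have hmul : ∀ f g : StabE F, α (f * g).1 = α f.1 * α g.1 := by
    intro f g
    apply blk_inj (B := β (f * g).1) (B' := β f.1 * β g.1)
    intro x
    rw [← hαβ _ (f * g).2, ← blkFun_comp, ← hαβ _ g.2, ← hαβ _ f.2]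
    rfl
  refine ⟨MonoidHom.mk' (fun f => ⟨α f.1, hdet f⟩) ?_, ?_⟩
  · intro f g
    apply Subtype.ext
    exact hmul f g
  · intro f g hfg
    have hA : α f.1 = α g.1 := congrArg Subtype.val hfg
    have h1 := (hA6b f.1 f.2.1 _ _ (hαβ f.1 f.2)).2
    have h2 := (hA6b g.1 g.2.1 _ _ (hαβ g.1 g.2)).2
    have h2' : α g.1 * (β g.1).transpose = 1 := mul_eq_one_comm.mp h2
    have hB : (β f.1).transpose = (β g.1).transpose := by
      calc (β f.1).transpose = (β f.1).transpose * (α g.1 * (β g.1).transpose) := by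
            rw [h2', mul_one]
        _ = ((β f.1).transpose * α f.1) * (β g.1).transpose := by rw [hA, mul_assoc]
        _ = (β g.1).transpose := by rw [h1, one_mul]
    have hB' : β f.1 = β g.1 := Matrix.transpose_injective hB
    apply Subtype.ext
    apply LinearEquiv.ext
    intro x
    rw [hαβ _ f.2, hαβ _ g.2, hA, hB']

/-- [A6c] -/
theorem stab_embed (F : Type*) [Field F] :
    ∃ ρ : StabE F →* Matrix.SpecialLinearGroup (Fin 3) F, Function.Injective ρ :=
  stab_embed_of F (fun f hf => Cfsg.Agent.Lib.Helper14.G2Syl.stab_form f hf)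
    (fun f hf A B h => Cfsg.Agent.Lib.Helper14.G2Syl.blk_det f hf A B h)

end Cfsg.Agent.Lib.Helper63.G2Syl
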