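import Cfsg.Agent.Lib.Helper58.G2Syl.Defs

set_option autoImplicit false

/-! # G2Syl piece B3 : `phiFun A B` is multiplicative when `det A = det B` -/

namespace Cfsg.Agent.Lib.Helper63.G2Syl

open Cfsg Cfsg.Lie Cfsg.Agent.Lib.Helper58.WrSyl Cfsg.Agent.Lib.Helper58.G2Syl
open scoped MatrixGroups
open Matrix.GeneralLinearGroup (scalar det)

theorem theta_mul' {F : Type*} [Field F] (x y : Fin 8 → F) :
    thX (zornMul x y) = thX x * thX y - (thY y).adjugate * thY x ∧
      thY (zornMul x y) = thY y * thX x + thY x * (thX y).adjugate := by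
  constructor <;> ext i j <;> fin_cases i <;> fin_cases j <;>
    simp [thX, thY, zornMul, dot3, cross3, Matrix.adjugate_fin_two] <;> ring

theorem thX_thInv {F : Type*} [Field F] (X Y : Matrix (Fin 2) (Fin 2) F) :
    thX (thInv X Y) = X := by
  ext i j; fin_cases i <;> fin_cases j <;> simp [thX, thInv]

theorem thY_thInv {F : Type*} [Field F] (X Y : Matrix (Fin 2) (Fin 2) F) :
    thY (thInv X Y) = Y := by
  ext i j; fin_cases i <;> fin_cases j <;> simp [thY, thInv]

theorem thInv_th {F : Type*} [Field F] (x : Fin 8 → F) :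
    thInv (thX x) (thY x) = x := by
  ext i; fin_cases i <;> simp [thX, thY, thInv]

theorem th_ext {F : Type*} [Field F] {x y : Fin 8 → F} (h1 : thX x = thX y) (h2 : thY x = thY y) :
    x = y := by
  rw [← thInv_th x, ← thInv_th y, h1, h2]

theorem adj_of_inv {F : Type*} [Field F] {b bi : Matrix (Fin 2) (Fin 2) F} (h : bi * b = 1) :
    b.adjugate = b.det • bi := by
  have h1 : b * b.adjugate = b.det • (1 : Matrix (Fin 2) (Fin 2) F) := Matrix.mul_adjugate b
  calc b.adjugate = (bi * b) * b.adjugate := by rw [h, one_mul]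
    _ = bi * (b * b.adjugate) := by rw [mul_assoc]
    _ = b.det • bi := by rw [h1, mul_smul_comm, mul_one]

theorem phiFun_mul {F : Type*} [Field F] (A B : GL (Fin 2) F) (h : det A = det B)
    (x y : Fin 8 → F) : phiFun A B (zornMul x y) = zornMul (phiFun A B x) (phiFun A B y) := by
  set a : Matrix (Fin 2) (Fin 2) F := (A : Matrix (Fin 2) (Fin 2) F) with ha
  set b : Matrix (Fin 2) (Fin 2) F := (B : Matrix (Fin 2) (Fin 2) F) with hb
  set bi : Matrix (Fin 2) (Fin 2) F := ((B⁻¹ : GL (Fin 2) F) : Matrix (Fin 2) (Fin 2) F) with hbi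
  have hbb : b * bi = 1 := by
    rw [hb, hbi, ← Units.val_mul, mul_inv_cancel, Units.val_one]
  have hbb' : bi * b = 1 := by
    rw [hb, hbi, ← Units.val_mul, inv_mul_cancel, Units.val_one]
  have hdet : a.det = b.det := by
    have := congrArg (fun u : Fˣ => (u : F)) h
    simpa using this
  have hdd : bi.det * b.det = 1 := by
    rw [← Matrix.det_mul, hbb', Matrix.det_one]
  have hadjb : b.adjugate = b.det • bi := adj_of_inv hbb'
  have hadjbi : bi.adjugate = bi.det • b := adj_of_inv hbb
  have hX : ∀ z, thX (phiFun A B z) = b * thX z * bi := fun z => thX_thInv _ _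
  have hY : ∀ z, thY (phiFun A B z) = a * thY z * bi := fun z => thY_thInv _ _
  obtain ⟨m1, m2⟩ := theta_mul' x y
  obtain ⟨n1, n2⟩ := theta_mul' (phiFun A B x) (phiFun A B y)
  apply th_ext
  · rw [hX, n1, m1, hX, hX, hY, hY]
    set X := thX x
    set Y := thY x
    set Z := thX y
    set W := thY y
    have e1 : b * X * bi * (b * Z * bi) = b * (X * Z) * bi := by
      calc b * X * bi * (b * Z * bi) = b * X * (bi * b) * Z * bi := by simp only [mul_assoc]
        _ = b * (X * Z) * bi := by rw [hbb', mul_one]; simp only [mul_assoc]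
    have e2 : (a * W * bi).adjugate * (a * Y * bi) = b * (W.adjugate * Y) * bi := by
      rw [Matrix.adjugate_mul_distrib, Matrix.adjugate_mul_distrib, hadjbi]
      calc bi.det • b * (W.adjugate * a.adjugate) * (a * Y * bi)
          = bi.det • (b * W.adjugate * (a.adjugate * a) * Y * bi) := by
            simp only [mul_assoc, smul_mul_assoc]
        _ = b * (W.adjugate * Y) * bi := by
            rw [Matrix.adjugate_mul, hdet, mul_smul_comm, mul_one, smul_mul_assoc, smul_mul_assoc,
              smul_smul, hdd, one_smul]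
            simp only [mul_assoc]
    rw [e1, e2, mul_sub, sub_mul]
  · rw [hY, n2, m2, hX, hX, hY, hY]
    set X := thX x
    set Y := thY x
    set Z := thX y
    set W := thY y
    have e1 : a * W * bi * (b * X * bi) = a * (W * X) * bi := by
      calc a * W * bi * (b * X * bi) = a * W * (bi * b) * X * bi := by simp only [mul_assoc]
        _ = a * (W * X) * bi := by rw [hbb', mul_one]; simp only [mul_assoc]
    have e2 : a * Y * bi * (b * Z * bi).adjugate = a * (Y * Z.adjugate) * bi := by
      rw [Matrix.adjugate_mul_distrib, Matrix.adjugate_mul_distrib, hadjbi, hadjb]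
      calc a * Y * bi * (bi.det • b * (Z.adjugate * b.det • bi))
          = (bi.det * b.det) • (a * Y * (bi * b) * Z.adjugate * bi) := by
            simp only [mul_assoc, smul_mul_assoc, mul_smul_comm, smul_smul]
            rw [mul_comm b.det]
        _ = a * (Y * Z.adjugate) * bi := by
            rw [hdd, one_smul, hbb', mul_one]
            simp only [mul_assoc]
    rw [e1, e2, mul_add, add_mul]

end Cfsg.Agent.Lib.Helper63.G2Syl
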